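import Groth.Agent.Sga2lef.H298.VanX0Of

/-!
# Piece (V_gen) of S3361 from the relative lemma of Enriques–Severi–Zariski

`exists_vanish_gen_of`: `X` proper and flat over `A`, `L` ample with inverse `P`, the fibres of depth `≥ 2` at their
closed points, `E` finite locally free on `X`; then `H^i(X, E ⊗ P^m) = 0` for `i ≤ 1` and `m` large.
-/

set_option autoImplicit false
universe u

open CategoryTheory CategoryTheory.Limits AlgebraicGeometry Opposite TopologicalSpace

namespace Groth.Agent.Sga2lef.H298.VanGenOf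

theorem exists_vanish_gen_of
    (A : Type u) [CommRing A] [IsNoetherianRing A] (X : Scheme.{u}) [X.Over (Spec (CommRingCat.of A))]
    [IsProper (X ↘ Spec (CommRingCat.of A))] [Flat (X ↘ Spec (CommRingCat.of A))]
    (hrel : VanX0Of.RelEsz A X) {L P : X.Modules}
    (hL : ClSub.IsInverseOf L P) (hamp : CohB1.IsAmple L)
    (hdepth : ∀ x : X, IsClosed ({((X ↘ Spec (CommRingCat.of A))).asFiber x} :
        Set ↥(((X ↘ Spec (CommRingCat.of A))).fiber (((X ↘ Spec (CommRingCat.of A))).base x))) →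
      (2 : ℕ∞) ≤ LocCoh.depth ↑(CInt.fiberStalk (X ↘ Spec (CommRingCat.of A)) x)
        ↑(CInt.fiberStalk (X ↘ Spec (CommRingCat.of A)) x))
    (E : X.Modules) (hE : FlatMod.IsFinLocFree E) :
    ∃ m₀ : ℕ, ∀ m, m₀ ≤ m → ∀ i ≤ 1, Subsingleton (Coh.HH X
      (CohB1.tensorMod E (CohB1.tensorPow P m)) i) := by
  obtain ⟨m₀, h⟩ := hrel hL hamp E (PerfA.CohSerre.isCoh_of_isFinLocFree hE)
    (VanX0Core.isFlatOver_of_isFinLocFree _ hE) 1
    (fun s x hx => VanX0Core.one_lt_depth_fiber (X ↘ Spec (CommRingCat.of A)) hdepth hE s x hx)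
  exact ⟨m₀, fun m hm j hj => h m hm j hj⟩

end Groth.Agent.Sga2lef.H298.VanGenOf
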