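import Groth.Agent.Sga2lef.H298.VanGenOf
import Groth.Agent.Sga2lef.H82.RelEsz

/-!
# Pieces (V) and (V_gen) of S3361, unconditionally
-/

set_option autoImplicit false
universe u

open CategoryTheory CategoryTheory.Limits AlgebraicGeometry Opposite TopologicalSpace

namespace Groth.Agent.Sga2lef.H298.VanX0

theorem relEsz' (A : Type u) [CommRing A] [IsNoetherianRing A] (X : Scheme.{u})
    [X.Over (Spec (CommRingCat.of A))] [IsProper (X ↘ Spec (CommRingCat.of A))] : VanX0Of.RelEsz A X :=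
  fun hL hamp F hF hfl n hd => H82.RelEsz.relEsz A X hL hamp F hF hfl n hd

/-- (V): hypotheses of S3361, `E` finite locally free on `V(𝓘)`. -/
theorem exists_vanish (A : Type u) [CommRing A] [IsNoetherianRing A] (X : Scheme.{u})
    [X.Over (Spec (CommRingCat.of A))]
    [IsProper (X ↘ Spec (CommRingCat.of A))] (𝓘 : X.IdealSheafData) (L : X.Modules)
    (hL : ClSub.IsInverseOf L (ClSub.idealMod 𝓘)) (hamp : CohB1.IsAmple L)
    [Flat (𝓘.subschemeι ≫ (X ↘ Spec (CommRingCat.of A)))]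
    (hdepth0 : ∀ y : ↥(𝓘.subscheme),
      IsClosed ({((𝓘.subschemeι ≫ (X ↘ Spec (CommRingCat.of A)))).asFiber y} :
        Set ↥(((𝓘.subschemeι ≫ (X ↘ Spec (CommRingCat.of A)))).fiber
          (((𝓘.subschemeι ≫ (X ↘ Spec (CommRingCat.of A)))).base y))) →
      (2 : ℕ∞) ≤ LocCoh.depth ↑(CInt.fiberStalk (𝓘.subschemeι ≫ (X ↘ Spec (CommRingCat.of A))) y)
        ↑(CInt.fiberStalk (𝓘.subschemeι ≫ (X ↘ Spec (CommRingCat.of A))) y))
    (E : 𝓘.subscheme.Modules) (hE : FlatMod.IsFinLocFree E) :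
    ∃ m₀ : ℕ, ∀ m, m₀ ≤ m → ∀ i ≤ 1, Subsingleton (Coh.HH X
      (CohB1.tensorMod ((Scheme.Modules.pushforward 𝓘.subschemeι).obj E)
        (CohB1.tensorPow (ClSub.idealMod 𝓘) m)) i) :=
  VanX0Of.exists_vanish_of (fun A _ _ X _ _ => relEsz' A X) A X 𝓘 L hL hamp hdepth0 E hE

/-- (V_gen): `X` proper flat over `A`, fibres of depth `≥ 2` at closed points, `E` finite locally free on `X`. -/
theorem exists_vanish_gen (A : Type u) [CommRing A] [IsNoetherianRing A] (X : Scheme.{u})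
    [X.Over (Spec (CommRingCat.of A))]
    [IsProper (X ↘ Spec (CommRingCat.of A))] [Flat (X ↘ Spec (CommRingCat.of A))] {L P : X.Modules}
    (hL : ClSub.IsInverseOf L P) (hamp : CohB1.IsAmple L)
    (hdepth : ∀ x : X, IsClosed ({((X ↘ Spec (CommRingCat.of A))).asFiber x} :
        Set ↥(((X ↘ Spec (CommRingCat.of A))).fiber (((X ↘ Spec (CommRingCat.of A))).base x))) →
      (2 : ℕ∞) ≤ LocCoh.depth ↑(CInt.fiberStalk (X ↘ Spec (CommRingCat.of A)) x)
        ↑(CInt.fiberStalk (X ↘ Spec (CommRingCat.of A)) x))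
    (E : X.Modules) (hE : FlatMod.IsFinLocFree E) :
    ∃ m₀ : ℕ, ∀ m, m₀ ≤ m → ∀ i ≤ 1, Subsingleton (Coh.HH X
      (CohB1.tensorMod E (CohB1.tensorPow P m)) i) :=
  VanGenOf.exists_vanish_gen_of A X (relEsz' A X) hL hamp hdepth E hE

end Groth.Agent.Sga2lef.H298.VanX0
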