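import Groth.Agent.CohqB.FinAmple
import Groth.Agent.Dix.IdealModCartier
import Groth.Agent.Sga2.PicThick
import Groth.Agent.Ega4dB.DepthReg
import Groth.Agent.Dcoh.StalkFF
import Groth.Agent.PerfA.CohSerre
import Groth.Agent.PerfC.PullRestrict
import Groth.Prelude.Def_CInt

/-!
# Vanishing on a closed subscheme, transported to the ambient scheme

Preparations for piece (V) of S3361:

* `depth_self_le_of_free`: `depth R R ≤ depth R M` for `M` free;
* `forall_fiber`: a statement about all points of all fibres can be checked at the points `asFiber y`;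
* `isFlatOver_of_isFinLocFree`: a finite locally free module on a flat `S`-scheme is flat over `S`;
* `one_lt_depth_fiber`: depth of the restrictions of a finite locally free module to the fibres;
* `isInverseOf_pullback`;
* `vanish_pushforward`: vanishing of `H^j(Y, E ⊗ (i^*P)^m)` gives vanishing of `H^j(X, i_*E ⊗ P^m)`.
-/

set_option autoImplicit false
universe u v

open CategoryTheory CategoryTheory.Limits AlgebraicGeometry Opposite TopologicalSpace

namespace Groth.Agent.Sga2lef.H298.VanX0Core

section Algebra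

open RingTheory.Sequence

theorem depth_self_le_of_free (R : Type u) [CommRing R] [IsLocalRing R] (M : Type v) [AddCommGroup M]
    [Module R M] [Module.Flat R M] : LocCoh.depth R R ≤ LocCoh.depth R M := by
  unfold LocCoh.depth
  refine ENat.forall_natCast_le_iff_le.mp fun n hn => ?_
  rw [Ega4dB.DepthReg.le_idealDepth_iff] at hn ⊢
  rcases hn with h | ⟨rs, h1, h2, h3⟩
  · exfalso
    rw [Ideal.smul_top_eq_map] at h
    have h4 : (IsLocalRing.maximalIdeal R) = ⊤ := by
      rw [eq_top_iff]
      intro x _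
      have hx : x ∈ ((IsLocalRing.maximalIdeal R).map (algebraMap R R)).restrictScalars R := by
        rw [h]; trivial
      simpa using hx
    exact (IsLocalRing.maximalIdeal.isMaximal R).ne_top h4
  · exact Or.inr ⟨rs, h1, h2,
      ((TensorProduct.rid R M).isWeaklyRegular_congr rs).mp h3.isWeaklyRegular_lTensor⟩

end Algebra

variable {X Y S : Scheme.{u}}

/-- All points of all fibres are of the form `q.asFiber y`. -/
theorem forall_fiber {q : Y ⟶ S} {P : ∀ s : S, ↥(q.fiber s) → Prop}
    (h : ∀ y : Y, P (q y) (q.asFiber y)) (s : S) (x : ↥(q.fiber s)) : P s x := by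
  have hs : q (q.fiberι s x) = s := by
    have h1 : q.fiberι s x ∈ Set.range (q.fiberι s) := ⟨x, rfl⟩
    rw [Scheme.Hom.range_fiberι] at h1
    exact h1
  generalize hy : q.fiberι s x = y at hs
  subst hs
  have hx : x = q.asFiber y :=
    (q.fiberι (q y)).isEmbedding.injective (by rw [hy, Scheme.Hom.fiberι_asFiber])
  rw [hx]
  exact h y

/-- A finite locally free module on a flat `S`-scheme is flat over `S`. -/
theorem isFlatOver_of_isFinLocFree (q : Y ⟶ S) [Flat q] {E : Y.Modules} (hE : FlatMod.IsFinLocFree E) :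
    FlatMod.IsFlatOver q E := by
  intro x
  letI a0 : Algebra (S.presheaf.stalk (q x)) (Y.presheaf.stalk x) := (q.stalkMap x).hom.toAlgebra
  letI a2 := FlatMod.moduleStalkOver q E x
  have h1 : Module.Flat (S.presheaf.stalk (q x)) (Y.presheaf.stalk x) := Flat.stalkMap q x
  obtain ⟨h2, -⟩ := Dcoh.StalkFF.FF_of_isFinLocFree hE x
  haveI : IsScalarTower (S.presheaf.stalk (q x)) (Y.presheaf.stalk x) (E.presheaf.stalk x) :=
    IsScalarTower.of_algebraMap_smul fun _ _ => rfl
  exact Module.Flat.trans (S.presheaf.stalk (q x)) (Y.presheaf.stalk x) (E.presheaf.stalk x)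

/-- The fibres of a finite locally free module have at least the depth of the fibres of the scheme. -/
theorem depth_fiber_le (q : Y ⟶ S) {E : Y.Modules} (hE : FlatMod.IsFinLocFree E) (s : S) (x : ↥(q.fiber s)) :
    LocCoh.depth ((q.fiber s).presheaf.stalk x) ((q.fiber s).presheaf.stalk x) ≤
      LocCoh.depth ((q.fiber s).presheaf.stalk x)
        (((Scheme.Modules.pullback (q.fiberι s)).obj E).presheaf.stalk x) := by
  obtain ⟨h2, -⟩ := Dcoh.StalkFF.FF_of_isFinLocFree (PerfC.PullRestrict.isFinLocFree_pullback (q.fiberι s) hE) x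
  exact depth_self_le_of_free _ _

/-- The depth hypothesis of S3361 for a finite locally free module. -/
theorem one_lt_depth_fiber (q : Y ⟶ S)
    (hdepth : ∀ y : Y, IsClosed ({q.asFiber y} : Set ↥(q.fiber (q.base y))) →
      (2 : ℕ∞) ≤ LocCoh.depth ↑(CInt.fiberStalk q y) ↑(CInt.fiberStalk q y))
    {E : Y.Modules} (hE : FlatMod.IsFinLocFree E) (s : S) (x : ↥(q.fiber s))
    (hx : IsClosed ({x} : Set ↥(q.fiber s))) :
    ((1 : ℕ) : ℕ∞) < LocCoh.depth ((q.fiber s).presheaf.stalk x)
      (((Scheme.Modules.pullback (q.fiberι s)).obj E).presheaf.stalk x) := by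
  refine lt_of_lt_of_le ?_ (depth_fiber_le q hE s x)
  refine lt_of_lt_of_le (b := (2 : ℕ∞)) (by norm_num) ?_
  exact forall_fiber (q := q) (P := fun s x => IsClosed ({x} : Set ↥(q.fiber s)) →
    (2 : ℕ∞) ≤ LocCoh.depth ((q.fiber s).presheaf.stalk x) ((q.fiber s).presheaf.stalk x)) hdepth s x hx

open Grpsch.PicGrp in
/-- Pullback preserves inverses. -/
theorem isInverseOf_pullback (f : Y ⟶ X) {L M : X.Modules} (h : ClSub.IsInverseOf L M) :
    ClSub.IsInverseOf ((Scheme.Modules.pullback f).obj L) ((Scheme.Modules.pullback f).obj M) := by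
  obtain ⟨hL, hM⟩ := Dix.IdealModCartier.isInvertible_of_isInverseOf h
  have h1 : mk L hL * mk M hM = 1 := by
    rw [mk_mul_mk, mk_eq_one_iff]
    exact h
  have h2 := congrArg (pull f) h1
  rw [map_mul, map_one, pull_mk, pull_mk, mk_mul_mk, mk_eq_one_iff] at h2
  exact h2

/-- Vanishing of the cohomology of `E ⊗ (i^*P)^m` on `Y` gives vanishing of that of `i_*E ⊗ P^m` on `X`. -/
theorem vanish_pushforward (i : Y ⟶ X) [IsClosedImmersion i] {P : X.Modules} (hP : PicF.IsInvertible P)
    (E : Y.Modules) (m j : ℕ)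
    (h : Subsingleton (Coh.HH Y
      (CohB1.tensorMod E (CohB1.tensorPow ((Scheme.Modules.pullback i).obj P) m)) j)) :
    Subsingleton (Coh.HH X
      (CohB1.tensorMod ((Scheme.Modules.pushforward i).obj E) (CohB1.tensorPow P m)) j) := by
  obtain ⟨e⟩ := CohqB.FinAmple.nonempty_push_tw i hP E m
  exact Sga2.ThickCoh.subsingleton_HH_of_iso e.symm j (Sga2.PicThick.subsingleton_HH_pushforward i _ j h)

end Groth.Agent.Sga2lef.H298.VanX0Core
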