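import Groth.Agent.Sga2lef.H298.VanX0Core

/-!
# Piece (V) of S3361 from the relative lemma of Enriques–Severi–Zariski

`exists_vanish_of`: under the hypotheses of S3361, for `E` finite locally free on `X_0 = V(𝓘)`, the groups
`H^i(X, i_*E ⊗ P^m)` vanish for `i ≤ 1` and `m` large, provided the relative lemma of Enriques–Severi–Zariski
(`RelEsz A`, helper82) holds.
-/

set_option autoImplicit false
universe u

open CategoryTheory CategoryTheory.Limits AlgebraicGeometry Opposite TopologicalSpace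

namespace Groth.Agent.Sga2lef.H298.VanX0Of

/-- The relative lemma of Enriques–Severi–Zariski over `A` (in degrees `≤ n`), for one scheme `X`. -/
def RelEsz (A : Type u) [CommRing A] (X : Scheme.{u}) [X.Over (Spec (CommRingCat.of A))] : Prop :=
  ∀ {L P : X.Modules} (_ : ClSub.IsInverseOf L P) (_ : CohB1.IsAmple L) (F : X.Modules) (_ : Coh.IsCoh F)
    (_ : FlatMod.IsFlatOver (X ↘ Spec (CommRingCat.of A)) F) (n : ℕ)
    (_ : ∀ (s : Spec (CommRingCat.of A)) (x : (X ↘ Spec (CommRingCat.of A)).fiber s), IsClosed ({x} : Set _) →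
      (n : ℕ∞) < LocCoh.depth (((X ↘ Spec (CommRingCat.of A)).fiber s).presheaf.stalk x)
        (((Scheme.Modules.pullback ((X ↘ Spec (CommRingCat.of A)).fiberι s)).obj F).presheaf.stalk x)),
    ∃ m₀ : ℕ, ∀ m, m₀ ≤ m → ∀ i ≤ n, Subsingleton (Coh.HH X (CohB1.tensorMod F (CohB1.tensorPow P m)) i)

theorem exists_vanish_of
    (hrel : ∀ (A : Type u) [CommRing A] [IsNoetherianRing A] (X : Scheme.{u}) [X.Over (Spec (CommRingCat.of A))]
      [IsProper (X ↘ Spec (CommRingCat.of A))], RelEsz A X)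
    (A : Type u) [CommRing A] [IsNoetherianRing A] (X : Scheme.{u}) [X.Over (Spec (CommRingCat.of A))]
    [IsProper (X ↘ Spec (CommRingCat.of A))] (𝓘 : X.IdealSheafData) (L : X.Modules)
    (hL : ClSub.IsInverseOf L (ClSub.idealMod 𝓘)) (hamp : CohB1.IsAmple L)
    [Flat (𝓘.subschemeι ≫ (X ↘ Spec (CommRingCat.of A)))]
    (hdepth0 : ∀ y : ↥(𝓘.subscheme),
      IsClosed ({((𝓘.subschemeι ≫ (X ↘ Spec (CommRingCat.of A)))).asFiber y} :
        Set ↥(((𝓘.subschemeι ≫ (X ↘ Spec (CommRingCat.of A)))).fiber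
          (((𝓘.subschemeι ≫ (X ↘ Spec (CommRingCat.of A)))).base y))) →
      (2 : ℕ∞) ≤ LocCoh.depth ↑(CInt.fiberStalk (𝓘.subschemeι ≫ (X ↘ Spec (CommRingCat.of A))) y)
        ↑(CInt.fiberStalk (𝓘.subschemeι ≫ (X ↘ Spec (CommRingCat.of A))) y))
    (E : 𝓘.subscheme.Modules) (hE : FlatMod.IsFinLocFree E) :
    ∃ m₀ : ℕ, ∀ m, m₀ ≤ m → ∀ i ≤ 1, Subsingleton (Coh.HH X
      (CohB1.tensorMod ((Scheme.Modules.pushforward 𝓘.subschemeι).obj E)
        (CohB1.tensorPow (ClSub.idealMod 𝓘) m)) i) := by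
  letI : 𝓘.subscheme.Over (Spec (CommRingCat.of A)) := ⟨𝓘.subschemeι ≫ (X ↘ Spec (CommRingCat.of A))⟩
  haveI : IsProper (𝓘.subscheme ↘ Spec (CommRingCat.of A)) :=
    inferInstanceAs (IsProper (𝓘.subschemeι ≫ (X ↘ Spec (CommRingCat.of A))))
  haveI : Flat (𝓘.subscheme ↘ Spec (CommRingCat.of A)) :=
    inferInstanceAs (Flat (𝓘.subschemeι ≫ (X ↘ Spec (CommRingCat.of A))))
  obtain ⟨m₀, h⟩ := hrel A 𝓘.subscheme (VanX0Core.isInverseOf_pullback 𝓘.subschemeι hL)
    (CohqB.AmpCocycle.isAmple_pullback 𝓘.subschemeι hamp) E (PerfA.CohSerre.isCoh_of_isFinLocFree hE)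
    (VanX0Core.isFlatOver_of_isFinLocFree _ hE) 1
    (fun s x hx => VanX0Core.one_lt_depth_fiber (𝓘.subschemeι ≫ (X ↘ Spec (CommRingCat.of A))) hdepth0 hE s x hx)
  exact ⟨m₀, fun m hm j hj => VanX0Core.vanish_pushforward 𝓘.subschemeι
    (Dix.IdealModCartier.isInvertible_of_isInverseOf hL).2 E m j (h m hm j hj)⟩

end Groth.Agent.Sga2lef.H298.VanX0Of
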